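import Mathlib

/-! Definitions for the `p = 2` half of S4157: in a 2-group which is neither cyclic nor of maximal
class the number of cyclic subgroups of order `2 ^ b` (`b ≥ 2`) is even. -/

set_option autoImplicit false

namespace Cfsg.Agent.Lib.Helper86.Kul2

/-- a normal four-group `{1, z, e, e z}` with `z` central, elementwise. -/
structure FD (G : Type*) [Group G] (z e : G) : Prop where
  zc : ∀ g : G, g * z = z * g
  z1 : z ≠ 1
  z2 : z * z = 1
  e1 : e ≠ 1
  e2 : e * e = 1
  ez : e ≠ z
  cj : ∀ g : G, g * e * g⁻¹ = e ∨ g * e * g⁻¹ = e * z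

variable {G : Type*} [Group G]

/-- membership in the four-group -/
def InE (z e x : G) : Prop := x = 1 ∨ x = z ∨ x = e ∨ x = e * z

/-- elements of order `2 ^ b` whose cyclic group does not contain `z` -/
def X0 (z : G) (b : ℕ) : Set G := {g | orderOf g = 2 ^ b ∧ z ∉ Subgroup.zpowers g}

/-- elements of order `2 ^ b` whose cyclic group contains `z` (and which centralise `e` if `b = 2`) -/
def XS (z e : G) (b : ℕ) : Set G :=
  {g | orderOf g = 2 ^ b ∧ z ∈ Subgroup.zpowers g ∧ (b = 2 → g * e = e * g)}

/-- elements of order `4` with square `z` which do not centralise `e` -/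
def XN (z e : G) : Set G := {g | orderOf g = 2 ^ 2 ∧ z ∈ Subgroup.zpowers g ∧ g * e ≠ e * g}

/-- an element of `C(E) \ E` which is a central involution modulo `E` -/
def IsC0 (z e c : G) : Prop :=
  c * e = e * c ∧ ¬ InE z e c ∧ InE z e (c * c) ∧ ∀ g : G, InE z e (g * c * g⁻¹ * c⁻¹)

end Cfsg.Agent.Lib.Helper86.Kul2
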