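import Mathlib
import Cfsg.Agent.Lib.Helper86.Kul2.Defs

/-! Kul2: the four-group as a subgroup. -/

set_option autoImplicit false

namespace Cfsg.Agent.Lib.Helper86.Kul2

variable {G : Type*} [Group G] {z e : G}

namespace FD

theorem ze (d : FD G z e) : z * e = e * z := (d.zc e).symm
theorem z_ez (d : FD G z e) : z * (e * z) = e := by
  rw [← mul_assoc, d.ze, mul_assoc, d.z2, mul_one]
theorem e_ez (d : FD G z e) : e * (e * z) = z := by rw [← mul_assoc, d.e2, one_mul]
theorem ez_z (d : FD G z e) : e * z * z = e := by rw [mul_assoc, d.z2, mul_one]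
theorem ez_e (d : FD G z e) : e * z * e = z := by rw [mul_assoc, d.ze, d.e_ez]
theorem ez_ez (d : FD G z e) : e * z * (e * z) = 1 := by
  rw [mul_assoc, d.z_ez, d.e2]

theorem inE_mul (d : FD G z e) {a b : G} (ha : InE z e a) (hb : InE z e b) : InE z e (a * b) := by
  rcases ha with rfl | rfl | rfl | rfl <;> rcases hb with rfl | rfl | rfl | rfl <;>
    (try simp only [one_mul, mul_one, d.z2, d.ze, d.z_ez, d.e2, d.e_ez, d.ez_z, d.ez_e, d.ez_ez]) <;>
    simp [InE]

theorem sq_of_inE (d : FD G z e) {a : G} (ha : InE z e a) : a * a = 1 := by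
  rcases ha with rfl | rfl | rfl | rfl
  · simp
  · exact d.z2
  · exact d.e2
  · exact d.ez_ez

theorem inE_inv (d : FD G z e) {a : G} (ha : InE z e a) : InE z e a⁻¹ := by
  rw [inv_eq_of_mul_eq_one_left (d.sq_of_inE ha)]
  exact ha

/-- the four-group -/
def E (d : FD G z e) : Subgroup G where
  carrier := {x | InE z e x}
  one_mem' := Or.inl rfl
  mul_mem' := fun ha hb => d.inE_mul ha hb
  inv_mem' := fun ha => d.inE_inv ha

theorem mem_E (d : FD G z e) (x : G) : x ∈ d.E ↔ InE z e x := Iff.rfl

theorem comm_e (d : FD G z e) {a : G} (ha : InE z e a) : a * e = e * a := by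
  rcases ha with rfl | rfl | rfl | rfl
  · simp
  · exact d.ze
  · rfl
  · rw [d.ez_e, d.e_ez]

theorem comm_of_comm_e (d : FD G z e) {c a : G} (hc : c * e = e * c) (ha : InE z e a) :
    c * a = a * c := by
  rcases ha with rfl | rfl | rfl | rfl
  · simp
  · exact d.zc c
  · exact hc
  · rw [← mul_assoc, hc, mul_assoc, d.zc c, mul_assoc]

theorem conj_z (d : FD G z e) (g : G) : g * z * g⁻¹ = z := by
  rw [d.zc g, mul_inv_cancel_right]

theorem inE_conj (d : FD G z e) {a : G} (ha : InE z e a) (g : G) : InE z e (g * a * g⁻¹) := by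
  rcases ha with rfl | rfl | rfl | rfl
  · simp [InE]
  · rw [d.conj_z]; simp [InE]
  · rcases d.cj g with h | h <;> rw [h] <;> simp [InE]
  · have : g * (e * z) * g⁻¹ = (g * e * g⁻¹) * (g * z * g⁻¹) := by group
    rw [this, d.conj_z]
    rcases d.cj g with h | h <;> rw [h]
    · simp [InE]
    · rw [d.ez_z]; simp [InE]

theorem E_normal (d : FD G z e) : d.E.Normal := ⟨fun _ ha g => d.inE_conj ha g⟩

theorem card_E (d : FD G z e) : Nat.card d.E = 4 := by
  classical
  have h1 : (d.E : Set G) = ↑({1, z, e, e * z} : Finset G) := by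
    ext x
    simp only [SetLike.mem_coe, d.mem_E, InE, Finset.coe_insert, Finset.coe_singleton,
      Set.mem_insert_iff, Set.mem_singleton_iff]
  have hez1 : e * z ≠ 1 := by
    intro h
    apply d.ez
    have := congrArg (· * z) h
    simpa [mul_assoc, d.z2] using this
  have hezz : e * z ≠ z := by
    intro h
    exact d.e1 (mul_eq_right.1 h)
  have heze : e * z ≠ e := by
    intro h
    exact d.z1 (mul_eq_left.1 h)
  show Nat.card ↥(d.E : Set G) = 4
  rw [Nat.card_coe_set_eq, h1, Set.ncard_coe_finset]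
  rw [Finset.card_insert_of_notMem, Finset.card_insert_of_notMem, Finset.card_insert_of_notMem,
    Finset.card_singleton]
  · simp [heze.symm]
  · simp [d.ez.symm, hezz.symm]
  · simp [d.z1.symm, d.e1.symm, hez1.symm]

end FD

end Cfsg.Agent.Lib.Helper86.Kul2
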