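import Mathlib
import Cfsg.Agent.Lib.Helper86.Kul2.ESub
import Cfsg.Agent.Lib.Helper1.Nilpotent

/-! Kul2 piece K5. -/

set_option autoImplicit false

namespace Cfsg.Agent.Lib.Helper86.Kul2

variable {G : Type*} [Group G]

theorem FD.centralizer_normal {z e : G} (d : FD G z e) :
    (Subgroup.centralizer ({e} : Set G)).Normal := by
  constructor
  intro c hc g
  rw [Subgroup.mem_centralizer_singleton_iff] at hc ⊢
  have h1 : InE z e (g⁻¹ * e * g⁻¹⁻¹) := d.inE_conj (Or.inr (Or.inr (Or.inl rfl))) g⁻¹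
  have h2 := d.comm_of_comm_e hc h1
  calc g * c * g⁻¹ * e = g * (c * (g⁻¹ * e * g⁻¹⁻¹)) * g⁻¹ := by group
    _ = g * ((g⁻¹ * e * g⁻¹⁻¹) * c) * g⁻¹ := by rw [h2]
    _ = e * (g * c * g⁻¹) := by group

/-- in a `2`-group a nontrivial subgroup contains an involution which is a power of a given
nontrivial element. -/
theorem exists_pow_order_two {Q : Type*} [Group Q] (hQ : IsPGroup 2 Q) {w : Q} (hw : w ≠ 1) :
    ∃ k : ℕ, w ^ k ≠ 1 ∧ w ^ k * w ^ k = 1 := by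
  obtain ⟨j, hj⟩ := hQ w
  -- least j
  classical
  have hex : ∃ j : ℕ, w ^ 2 ^ j = 1 := ⟨j, hj⟩
  set j0 := Nat.find hex with hj0
  have h0 : w ^ 2 ^ j0 = 1 := Nat.find_spec hex
  have hpos : j0 ≠ 0 := by
    intro h
    rw [h] at h0
    simp at h0
    exact hw h0
  obtain ⟨i, hi⟩ := Nat.exists_eq_succ_of_ne_zero hpos
  refine ⟨2 ^ i, ?_, ?_⟩
  · intro h
    have := Nat.find_min hex (m := i) (by omega)
    exact this h
  · rw [← pow_add, ← two_mul, ← pow_succ', ← Nat.succ_eq_add_one, ← hi]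
    exact h0

/-- [K5] existence of c0. -/
theorem exists_c0 [Finite G] (hG : IsPGroup 2 G) {z e : G} (d : FD G z e)
    (hc : ∃ c : G, c * e = e * c ∧ ¬ InE z e c) : ∃ c0 : G, IsC0 z e c0 := by
  have : Fact (Nat.Prime 2) := ⟨Nat.prime_two⟩
  obtain ⟨c, hce, hcE⟩ := hc
  haveI hEn : d.E.Normal := d.E_normal
  haveI hCn := d.centralizer_normal
  have hQ : IsPGroup 2 (G ⧸ d.E) := hG.to_quotient d.E
  haveI hnil : Group.IsNilpotent (G ⧸ d.E) := hQ.isNilpotent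
  set Cb : Subgroup (G ⧸ d.E) :=
    (Subgroup.centralizer ({e} : Set G)).map (QuotientGroup.mk' d.E) with hCb
  haveI hCbn : Cb.Normal := Subgroup.Normal.map hCn _ (QuotientGroup.mk'_surjective d.E)
  have hne : Cb ≠ ⊥ := by
    intro h
    have h1 : QuotientGroup.mk' d.E c ∈ Cb :=
      ⟨c, Subgroup.mem_centralizer_singleton_iff.2 hce, rfl⟩
    rw [h, Subgroup.mem_bot] at h1
    exact hcE ((QuotientGroup.eq_one_iff c).1 h1)
  obtain ⟨⟨w, hw⟩, hw1⟩ := Subgroup.ne_bot_iff_exists_ne_one.1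
    (Cfsg.Agent.Lib.Helper1.normal_inf_center_ne_bot hne)
  have hw1' : w ≠ 1 := fun h => hw1 (Subtype.ext h)
  obtain ⟨k, hk1, hk2⟩ := exists_pow_order_two hQ hw1'
  have hwk : w ^ k ∈ Cb ⊓ Subgroup.center (G ⧸ d.E) := Subgroup.pow_mem _ hw k
  obtain ⟨⟨c0, hc0, hc0w⟩, hcen⟩ := hwk
  have hc0w' : (QuotientGroup.mk c0 : G ⧸ d.E) = w ^ k := hc0w
  refine ⟨c0, Subgroup.mem_centralizer_singleton_iff.1 hc0, ?_, ?_, ?_⟩
  · intro h
    apply hk1
    rw [← hc0w']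
    exact (QuotientGroup.eq_one_iff c0).2 h
  · have : (QuotientGroup.mk (c0 * c0) : G ⧸ d.E) = 1 := by
      rw [QuotientGroup.mk_mul, hc0w', hk2]
    exact (QuotientGroup.eq_one_iff _).1 this
  · intro g
    have : (QuotientGroup.mk (g * c0 * g⁻¹ * c0⁻¹) : G ⧸ d.E) = 1 := by
      rw [QuotientGroup.mk_mul, QuotientGroup.mk_mul, QuotientGroup.mk_mul, QuotientGroup.mk_inv,
        QuotientGroup.mk_inv, hc0w']
      have h1 := Subgroup.mem_center_iff.1 hcen (QuotientGroup.mk g)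
      rw [h1]
      group
    exact (QuotientGroup.eq_one_iff _).1 this

end Cfsg.Agent.Lib.Helper86.Kul2
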