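import Mathlib
import Cfsg.Agent.Lib.Helper86.Kul2.ESub
import Cfsg.Agent.S0112

/-! Kul2 piece K8b. -/

set_option autoImplicit false

namespace Cfsg.Agent.Lib.Helper86.Kul2

variable {G : Type*} [Group G]

/-- [K8b] a self-centralising four-group gives maximal class. -/
theorem exists_c_of_class [Finite G] (m : ℕ) (hG : Nat.card G = 2 ^ m)
    (h2 : Group.nilpotencyClass G ≠ m - 1) {z e : G} (d : FD G z e) :
    ∃ c : G, c * e = e * c ∧ ¬ InE z e c := by
  by_contra hcon
  push Not at hcon
  have : Fact (Nat.Prime 2) := ⟨Nat.prime_two⟩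
  apply h2
  apply Cfsg.Agent.S0112.result (p := 2) m hG d.E (by rw [d.card_E]; norm_num)
  apply le_antisymm
  · intro c hc
    rw [Subgroup.mem_centralizer_iff] at hc
    exact hcon c (hc e (Or.inr (Or.inr (Or.inl rfl)))).symm
  · intro c hc
    rw [Subgroup.mem_centralizer_iff]
    intro a ha
    exact (d.comm_of_comm_e (d.comm_e hc) ha).symm

end Cfsg.Agent.Lib.Helper86.Kul2
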