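import Mathlib
import Cfsg.Agent.Lib.Helper86.Kul2.Defs
import Cfsg.Agent.Lib.Helper86.Kul2.K5
import Cfsg.Agent.Lib.Helper86.Kul2.K8a
import Cfsg.Agent.Lib.Helper86.Kul2.K8b
import Cfsg.Agent.Lib.Helper98.Kul2.K3
import Cfsg.Agent.Lib.Helper98.Kul2.K4
import Cfsg.Agent.Lib.Helper98.Kul2.K6
import Cfsg.Agent.Lib.Helper69.FB.FO

/-! The number of cyclic subgroups of order `2 ^ b`, `b ≥ 2`, of a 2-group which is neither cyclic
nor of maximal class is even (assembly). -/

set_option autoImplicit false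

namespace Cfsg.Agent.Lib.Helper86.Kul2

open Cfsg.Agent.Lib.Helper98.Kul2

variable {G : Type*} [Group G]

theorem setOf_cyc_eq (b : ℕ) : {H : Subgroup G | Nat.card H = 2 ^ b ∧ IsCyclic H}
    = Subgroup.zpowers '' {g : G | orderOf g = 2 ^ b} := by
  ext H
  constructor
  · rintro ⟨hc, hcyc⟩
    obtain ⟨g, hg⟩ := (Subgroup.isCyclic_iff_exists_zpowers_eq_top H).1 hcyc
    exact ⟨g, by rw [Set.mem_setOf_eq, ← Nat.card_zpowers, hg, hc], hg⟩
  · rintro ⟨g, hg, rfl⟩
    exact ⟨by rw [Nat.card_zpowers]; exact hg, inferInstance⟩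

theorem disj_X0_XS (z e : G) (b : ℕ) :
    Disjoint (Subgroup.zpowers '' X0 z b) (Subgroup.zpowers '' XS z e b) := by
  rw [Set.disjoint_left]
  rintro _ ⟨g, hg, rfl⟩ ⟨h, hh, he⟩
  apply hg.2
  rw [← he]
  exact hh.2.1

theorem disj_X0_XN (z e : G) :
    Disjoint (Subgroup.zpowers '' X0 z 2) (Subgroup.zpowers '' XN z e) := by
  rw [Set.disjoint_left]
  rintro _ ⟨g, hg, rfl⟩ ⟨h, hh, he⟩
  apply hg.2
  rw [← he]
  exact hh.2.1

theorem disj_XS_XN (z e : G) :
    Disjoint (Subgroup.zpowers '' XS z e 2) (Subgroup.zpowers '' XN z e) := by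
  rw [Set.disjoint_left]
  rintro _ ⟨g, hg, rfl⟩ ⟨h, hh, he⟩
  apply hh.2.2
  have h1 : h ∈ Subgroup.zpowers g := by rw [← he]; exact Subgroup.mem_zpowers h
  obtain ⟨k, rfl⟩ := Subgroup.mem_zpowers_iff.1 h1
  exact (Commute.zpow_left (show Commute g e from hg.2.2 rfl) k)

/-- [K7] -/
theorem even_cyc_of_data [Finite G] {z e c0 : G} (d : FD G z e) (hc : IsC0 z e c0) {b : ℕ}
    (hb : 2 ≤ b) : Even (Nat.card {H : Subgroup G // Nat.card H = 2 ^ b ∧ IsCyclic H}) := by
  show Even (Nat.card ↥{H : Subgroup G | Nat.card H = 2 ^ b ∧ IsCyclic H})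
  rw [Nat.card_coe_set_eq, setOf_cyc_eq]
  by_cases hb2 : b = 2
  · subst hb2
    have hX : {g : G | orderOf g = 2 ^ 2} = X0 z 2 ∪ XS z e 2 ∪ XN z e := by
      ext g
      simp only [Set.mem_setOf_eq, Set.mem_union, X0, XS, XN]
      constructor
      · intro h
        by_cases h1 : z ∈ Subgroup.zpowers g
        · by_cases h2 : g * e = e * g
          · exact Or.inl (Or.inr ⟨h, h1, fun _ => h2⟩)
          · exact Or.inr ⟨h, h1, h2⟩
        · exact Or.inl (Or.inl ⟨h, h1⟩)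
      · rintro ((h | h) | h) <;> exact h.1
    rw [hX, Set.image_union, Set.image_union,
      Set.ncard_union_eq (Set.disjoint_union_left.2 ⟨disj_X0_XN z e, disj_XS_XN z e⟩)
        (Set.toFinite _) (Set.toFinite _),
      Set.ncard_union_eq (disj_X0_XS z e 2) (Set.toFinite _) (Set.toFinite _)]
    exact ((even_X0 d le_rfl).add (even_XS d le_rfl)).add (even_XN d hc)
  · have hX : {g : G | orderOf g = 2 ^ b} = X0 z b ∪ XS z e b := by
      ext g
      simp only [Set.mem_setOf_eq, Set.mem_union, X0, XS]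
      constructor
      · intro h
        by_cases h1 : z ∈ Subgroup.zpowers g
        · exact Or.inr ⟨h, h1, fun h' => absurd h' hb2⟩
        · exact Or.inl ⟨h, h1⟩
      · rintro (h | h) <;> exact h.1
    rw [hX, Set.image_union, Set.ncard_union_eq (disj_X0_XS z e b) (Set.toFinite _) (Set.toFinite _)]
    exact (even_X0 d hb).add (even_XS d hb)

/-- the number of cyclic subgroups of order `2 ^ b`, `b ≥ 2`, is even. -/
theorem even_cyclic [Finite G] (m : ℕ) (hG : Nat.card G = 2 ^ m) (hnc : ¬ IsCyclic G)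
    (h2 : Group.nilpotencyClass G ≠ m - 1) (b : ℕ) (hb : 2 ≤ b) :
    Even (Nat.card {H : Subgroup G // Nat.card H = 2 ^ b ∧ IsCyclic H}) := by
  have hP : IsPGroup 2 G := IsPGroup.of_card hG
  by_cases hn : ∀ A : Subgroup G, A.Normal → IsMulCommutative A → IsCyclic A
  · exact absurd (class_of_normal_cyclic m hG hnc hn) h2
  · push Not at hn
    obtain ⟨A, hA, hAc, hAn⟩ := hn
    obtain ⟨z, e, hz, hz1, hz2, he1, he2, hez, hcj⟩ :=
      Cfsg.Agent.Lib.Helper69.FB.exists_four hP A hA hAc hAn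
    have d : FD G z e :=
      ⟨fun g => (Subgroup.mem_center_iff.1 hz g), hz1, hz2, he1, he2, hez, hcj⟩
    obtain ⟨c0, hc0⟩ := exists_c0 hP d (exists_c_of_class m hG h2 d)
    exact even_cyc_of_data d hc0 hb

end Cfsg.Agent.Lib.Helper86.Kul2
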